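-- Team project CS3 (S4284), part [END] (helper79): shared counting lemmas for helper57's packages.
import Mathlib
import Cfsg.Agent.Lib.Helper79.CS3.EndDefs
import Cfsg.Agent.Lib.Helper71.CS3.Basics

set_option autoImplicit false

namespace Cfsg.Agent.Lib.Helper57.CS3

open Cfsg.Agent.Lib.Helper81.CS3 Cfsg.Agent.Lib.Helper79.CS3

universe u

variable {G : Type u} [Group G]

/-- `|Q K| = |Q| |K|` for `Q` normal and `Q ⊓ K = ⊥`. -/
theorem card_sup_of_normal_disjoint (Q K : Subgroup G) (hQ : Q.Normal) (h : Q ⊓ K = ⊥) :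
    Nat.card ↥(Q ⊔ K) = Nat.card Q * Nat.card K := by
  rw [← Nat.card_prod]
  symm
  refine Nat.card_congr (Equiv.ofBijective
    (fun x : Q × K => (⟨x.1 * x.2, Subgroup.mul_mem_sup x.1.2 x.2.2⟩ : ↥(Q ⊔ K))) ⟨?_, ?_⟩)
  · intro x y hxy
    exact Subgroup.mul_injective_of_disjoint (disjoint_iff.mpr h) (congrArg Subtype.val hxy)
  · rintro ⟨g, hg⟩
    obtain ⟨q, hq, k, hk, rfl⟩ := Subgroup.mem_sup_of_normal_left.mp hg
    exact ⟨(⟨q, hq⟩, ⟨k, hk⟩), rfl⟩

/-- `|K : H ⊓ K| |H ⊓ K| = |K|`. -/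
theorem relIndex_mul_card_inf (H K : Subgroup G) :
    H.relIndex K * Nat.card ↥(H ⊓ K) = Nat.card K := by
  have h1 := Subgroup.card_mul_index (H.subgroupOf K)
  have h2 : Nat.card (H.subgroupOf K) = Nat.card ↥(H ⊓ K) := by
    rw [← Subgroup.inf_subgroupOf_right]
    exact Nat.card_congr (Subgroup.subgroupOfEquivOfLe inf_le_right).toEquiv
  rw [Subgroup.relIndex, ← h2, mul_comm]; exact h1

theorem mem_cent_single {x g : G} :
    g ∈ Subgroup.centralizer ({x} : Set G) ↔ g * x = x * g := by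
  rw [Subgroup.mem_centralizer_iff]
  constructor
  · intro h; exact (h x rfl).symm
  · intro h y hy
    rw [Set.mem_singleton_iff] at hy
    subst hy; exact h.symm

/-- Dedekind: if `Q ≤ C`, `Q` normal, `Q ⊔ P = ⊤` then `C = Q ⊔ (C ⊓ P)`. -/
theorem dedekind_top (Q P C : Subgroup G) (hQ : Q.Normal) (hsup : Q ⊔ P = ⊤) (hQC : Q ≤ C) :
    Q ⊔ (C ⊓ P) = C := by
  apply le_antisymm
  · exact sup_le hQC inf_le_left
  · intro g hg
    have hg' : g ∈ Q ⊔ P := by rw [hsup]; exact Subgroup.mem_top g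
    obtain ⟨q, hq, l, hl, rfl⟩ := Subgroup.mem_sup_of_normal_left.mp hg'
    have hlC : l ∈ C := by
      have : l = q⁻¹ * (q * l) := by group
      rw [this]; exact C.mul_mem (C.inv_mem (hQC hq)) hg
    exact Subgroup.mul_mem_sup hq ⟨hlC, hl⟩

/-- If `Q ≤ C`, `Q` normal, `Q ⊓ P = ⊥`, `Q ⊔ P = ⊤` then `|P : C ⊓ P| = |G : C|`. -/
theorem relIndex_eq_index_of_le [Finite G] (Q P C : Subgroup G) (hQ : Q.Normal)
    (hinf : Q ⊓ P = ⊥) (hsup : Q ⊔ P = ⊤) (hQC : Q ≤ C) :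
    C.relIndex P = C.index := by
  have h1 : Nat.card ↥(Q ⊔ (C ⊓ P)) = Nat.card Q * Nat.card ↥(C ⊓ P) := by
    apply card_sup_of_normal_disjoint Q _ hQ
    apply le_antisymm _ bot_le
    rw [← hinf]
    exact inf_le_inf_left Q inf_le_right
  rw [dedekind_top Q P C hQ hsup hQC] at h1
  have h2 : Nat.card ↥(Q ⊔ P) = Nat.card Q * Nat.card P :=
    card_sup_of_normal_disjoint Q P hQ hinf
  rw [hsup, Subgroup.card_top] at h2
  have h3 := Subgroup.index_mul_card C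
  have h4 := relIndex_mul_card_inf C P
  have hQpos : 0 < Nat.card Q := Nat.card_pos
  have hKpos : 0 < Nat.card ↥(C ⊓ P) := Nat.card_pos
  have h5 : C.index * Nat.card ↥(C ⊓ P) * Nat.card Q = C.relIndex P * Nat.card ↥(C ⊓ P) * Nat.card Q := by
    rw [h4, mul_comm (Nat.card P), ← h2, ← h3, h1]; ring
  have h6 := Nat.eq_of_mul_eq_mul_right hQpos h5
  exact (Nat.eq_of_mul_eq_mul_right hKpos h6).symm

end Cfsg.Agent.Lib.Helper57.CS3
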