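-- Team project CS3 (S4284), part [END] (helper79): package [E7].
import Mathlib
import Cfsg.Agent.Lib.Helper57.CS3.EndBase

set_option autoImplicit false

namespace Cfsg.Agent.Lib.Helper57.CS3

open Cfsg.Agent.Lib.Helper81.CS3 Cfsg.Agent.Lib.Helper79.CS3

universe u

/-- `|Q|` is prime to `p` in the setting `S1`. -/
theorem s1_coprime_p {G : Type u} [Group G] {m n : ℕ} {Q P : Subgroup G} {p : ℕ}
    (hS : S1 G m n Q P p) : (Nat.card Q).Coprime p := by
  obtain ⟨j, hj⟩ := hS.pm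
  have hm1 : 1 < m := hS.s0.hyp.2.1
  have hpm : p ∣ m := by
    rw [hj]
    apply dvd_pow_self
    rintro rfl
    rw [pow_zero] at hj; omega
  exact Nat.Coprime.coprime_dvd_right hpm hS.s0.qm

/-- `n` is prime to `p` in the setting `S1`. -/
theorem s1_coprime_n {G : Type u} [Group G] {m n : ℕ} {Q P : Subgroup G} {p : ℕ}
    (hS : S1 G m n Q P p) : p.Coprime n := by
  obtain ⟨j, hj⟩ := hS.pm
  have hm1 : 1 < m := hS.s0.hyp.2.1
  have hpm : p ∣ m := by
    rw [hj]
    apply dvd_pow_self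
    rintro rfl
    rw [pow_zero] at hj; omega
  exact Nat.Coprime.coprime_dvd_left hpm hS.s0.hyp.2.2.2.1

/-- elements of `Q` and of `P` have coprime orders. -/
theorem s1_coprime_orders {G : Type u} [Group G] [Finite G] {m n : ℕ} {Q P : Subgroup G} {p : ℕ}
    (hS : S1 G m n Q P p) {y u : G} (hy : y ∈ Q) (hu : u ∈ P) :
    (orderOf y).Coprime (orderOf u) := by
  obtain ⟨k, hk⟩ := hS.pg ⟨u, hu⟩
  have hk' : u ^ p ^ k = 1 := by
    have := congrArg Subtype.val hk
    simpa using this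
  have h1 : orderOf u ∣ p ^ k := orderOf_dvd_of_pow_eq_one hk'
  have h2 : orderOf y ∣ Nat.card Q := Subgroup.orderOf_dvd_natCard Q hy
  exact Nat.Coprime.coprime_dvd_left h2
    (Nat.Coprime.coprime_dvd_right h1 (Nat.Coprime.pow_right k (s1_coprime_p hS)))

/-- [E7] for `y ∈ Q` not central: `|P : C_P(y)| = m` and `C_P(y)` is abelian. -/
theorem pkgE7_of (hE1 : PkgE1.{u}) (hCent : PkgCent.{u}) (hB4 : PkgB4.{u}) : PkgE7.{u} := by
  intro G _ _ m n Q P p hS y hy hyZ
  have hyp := hS.s0.hyp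
  have : Fact p.Prime := ⟨hS.pp⟩
  have hQn : Q.Normal := hS.s0.qn
  -- i(y) = m
  have hyC : y ∈ Subgroup.centralizer (Q : Set G) := by
    rw [Subgroup.mem_centralizer_iff]
    intro h hh
    exact hS.s0.qc h hh y hy
  have hiy : (Subgroup.centralizer ({y} : Set G)).index = m := by
    rcases (hE1 m n Q P hS.s0 y).mp hyC with h | h
    · exact absurd ((Cfsg.Agent.Lib.Helper71.CS3.idx_eq_one_iff y).mp h) hyZ
    · exact h
  have hQC : Q ≤ Subgroup.centralizer ({y} : Set G) := by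
    intro q hq
    rw [mem_cent_single]
    exact hS.s0.qc q hq y hy
  have hrel : (Subgroup.centralizer ({y} : Set G)).relIndex P = m := by
    rw [relIndex_eq_index_of_le Q P _ hQn hS.s0.inf hS.s0.sup hQC, hiy]
  refine ⟨hrel, ?_⟩
  intro u hu huy v hv hvy
  set C := Subgroup.centralizer ({y} : Set G) with hC
  set L0 := C ⊓ P with hL0
  have huL0 : u ∈ L0 := ⟨mem_cent_single.mpr huy, hu⟩
  have hvL0 : v ∈ L0 := ⟨mem_cent_single.mpr hvy, hv⟩
  have hded : Q ⊔ L0 = C := dedekind_top Q P C hQn hS.s0.sup hQC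
  have hinf0 : Q ⊓ L0 = ⊥ := by
    apply le_antisymm _ bot_le
    rw [← hS.s0.inf]
    exact inf_le_inf_left Q inf_le_right
  -- B4
  have hb4 := hB4 m n hyp y u hiy huy.symm (s1_coprime_orders hS hy hu)
  -- CENT
  have hcent := hCent Q L0 (fun l _ q hq => hQn.conj_mem q hq l) hinf0 u huL0
  rw [hded] at hcent
  set Cu := Subgroup.centralizer ({u} : Set G) with hCu
  have e1 := relIndex_mul_card_inf Cu C
  have e2 := relIndex_mul_card_inf Cu Q
  have e3 := relIndex_mul_card_inf Cu L0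
  have e4 : Nat.card C = Nat.card Q * Nat.card L0 := by
    rw [← hded]; exact card_sup_of_normal_disjoint Q L0 hQn hinf0
  have hapos : 0 < Nat.card ↥(Cu ⊓ Q) := Nat.card_pos
  have hbpos : 0 < Nat.card ↥(Cu ⊓ L0) := Nat.card_pos
  have e5 : Cu.relIndex C = Cu.relIndex Q * Cu.relIndex L0 := by
    have : Cu.relIndex C * (Nat.card ↥(Cu ⊓ Q) * Nat.card ↥(Cu ⊓ L0)) =
        Cu.relIndex Q * Cu.relIndex L0 * (Nat.card ↥(Cu ⊓ Q) * Nat.card ↥(Cu ⊓ L0)) := by
      have t1 : Cu.relIndex C * (Nat.card ↥(Cu ⊓ Q) * Nat.card ↥(Cu ⊓ L0)) = Nat.card C := by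
        rw [← hcent, e1]
      have t2 : Cu.relIndex Q * Cu.relIndex L0 * (Nat.card ↥(Cu ⊓ Q) * Nat.card ↥(Cu ⊓ L0)) =
          Nat.card Q * Nat.card L0 := by
        rw [← e2, ← e3]; ring
      rw [t1, t2, e4]
    exact Nat.eq_of_mul_eq_mul_right (Nat.mul_pos hapos hbpos) this
  -- the `L0`-factor is a power of `p` dividing `1` or `n`
  obtain ⟨k, hk⟩ := (IsPGroup.iff_card (p := p) (G := ↥P)).mp hS.pg
  have hd1 : Cu.relIndex L0 ∣ p ^ k := by
    rw [← hk]
    exact (Subgroup.relIndex_dvd_card Cu L0).trans (Subgroup.card_dvd_of_le inf_le_right)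
  have hd2 : Cu.relIndex L0 ∣ n := by
    rcases hb4 with h | h
    · have h' : Cu.relIndex Q * Cu.relIndex L0 = 1 := e5.symm.trans h
      rw [Nat.eq_one_of_mul_eq_one_left h']; exact one_dvd n
    · rw [← h, e5]; exact Dvd.intro_left _ rfl
  have hone : Cu.relIndex L0 = 1 := by
    have hcop : (p ^ k).Coprime n := Nat.Coprime.pow_left k (s1_coprime_n hS)
    exact Nat.eq_one_of_dvd_coprimes hcop hd1 hd2
  have hle : L0 ≤ Cu := Subgroup.relIndex_eq_one.mp hone
  have := mem_cent_single.mp (hle hvL0)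
  exact this.symm

end Cfsg.Agent.Lib.Helper57.CS3
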